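/-
The projective plane of order 3 as a concrete incidence structure; automorphisms of the graph of
flags (two flags adjacent when they share a point or a line) keep or swap points and lines, and the
automorphisms keeping points and lines number at most 5616.
-/
import Mathlib

set_option autoImplicit false
set_option maxRecDepth 100000

namespace Cfsg.Agent.Lib.L33Comm.Plane

open Equiv

/-- Normalised vectors of the 3-space over the field with 3 elements. -/
def pv : Fin 13 → Fin 3 → ZMod 3 :=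
  ![![1,0,0],![0,1,0],![0,0,1],![1,1,0],![1,2,0],![1,0,1],![1,0,2],![0,1,1],![0,1,2],![1,1,1],
    ![1,1,2],![1,2,1],![1,2,2]]

/-- Incidence of a point and a line. -/
def inc (p l : Fin 13) : Prop := pv p 0 * pv l 0 + pv p 1 * pv l 1 + pv p 2 * pv l 2 = 0

instance : DecidableRel inc := fun p l => by unfold inc; infer_instance

theorem inc_comm : ∀ p l, inc p l ↔ inc l p := by decide +kernel

theorem line_unique : ∀ a b l m : Fin 13, a ≠ b → inc a l → inc b l → inc a m → inc b m → l = m := by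
  decide +kernel

theorem point_unique : ∀ l m a b : Fin 13, l ≠ m → inc a l → inc a m → inc b l → inc b m → a = b := by
  decide +kernel

theorem exists_line : ∀ a b : Fin 13, ∃ l, inc a l ∧ inc b l := by decide +kernel

theorem exists_point : ∀ l m : Fin 13, ∃ a, inc a l ∧ inc a m := by decide +kernel

/-- Two lines through a point. -/
theorem two_lines : ∀ p : Fin 13, ∀ l : Fin 13, inc p l → ∃ m, m ≠ l ∧ inc p m := by decide +kernel

theorem two_points : ∀ l : Fin 13, ∀ p : Fin 13, inc p l → ∃ q, q ≠ p ∧ inc q l := by decide +kernel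

theorem line_through : ∀ p : Fin 13, ∃ l, inc p l := by decide +kernel

theorem point_on : ∀ l : Fin 13, ∃ p, inc p l := by decide +kernel

/-- Flags. -/
abbrev Flag := {e : Fin 13 × Fin 13 // inc e.1 e.2}

/-- Adjacency of flags. -/
def adj (e e' : Flag) : Prop := e.1.1 = e'.1.1 ∨ e.1.2 = e'.1.2

theorem flag_ext {e e' : Flag} (h1 : e.1.1 = e'.1.1) (h2 : e.1.2 = e'.1.2) : e = e' :=
  Subtype.ext (Prod.ext h1 h2)

/-- Automorphisms of the flag graph that keep points and lines. -/
def Keep (α : Perm Flag) : Prop :=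
  (∀ e e', e.1.1 = e'.1.1 → (α e).1.1 = (α e').1.1) ∧ (∀ e e', e.1.2 = e'.1.2 → (α e).1.2 = (α e').1.2)

/-- Automorphisms of the flag graph that swap points and lines. -/
def Swap (α : Perm Flag) : Prop :=
  (∀ e e', e.1.1 = e'.1.1 → (α e).1.2 = (α e').1.2) ∧ (∀ e e', e.1.2 = e'.1.2 → (α e).1.1 = (α e').1.1)

/-- Automorphisms of the flag graph. -/
def IsAut (α : Perm Flag) : Prop := ∀ e e', adj (α e) (α e') ↔ adj e e'

section dichotomy

variable {α : Perm Flag} (hα : IsAut α)

/-- A flag at a given point. -/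
theorem exists_two_at_point (p : Fin 13) : ∃ e e' : Flag, e.1.1 = p ∧ e'.1.1 = p ∧ e.1.2 ≠ e'.1.2 := by
  obtain ⟨l, hl⟩ := line_through p
  obtain ⟨m, hm, hm2⟩ := two_lines p l hl
  exact ⟨⟨(p, l), hl⟩, ⟨(p, m), hm2⟩, rfl, rfl, Ne.symm hm⟩

theorem exists_two_at_line (l : Fin 13) : ∃ e e' : Flag, e.1.2 = l ∧ e'.1.2 = l ∧ e.1.1 ≠ e'.1.1 := by
  obtain ⟨p, hp⟩ := point_on l
  obtain ⟨q, hq, hq2⟩ := two_points l p hp
  exact ⟨⟨(p, l), hp⟩, ⟨(q, l), hq2⟩, rfl, rfl, Ne.symm hq⟩

include hα

/-- Images of a point star have a common point or a common line. -/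
theorem star_point (p : Fin 13) :
    (∀ e e' : Flag, e.1.1 = p → e'.1.1 = p → (α e).1.1 = (α e').1.1) ∨
      (∀ e e' : Flag, e.1.1 = p → e'.1.1 = p → (α e).1.2 = (α e').1.2) := by
  obtain ⟨e₁, e₂, h1, h2, hne⟩ := exists_two_at_point p
  have hne' : α e₁ ≠ α e₂ := fun h => by
    have := α.injective h
    rw [this] at hne
    exact hne rfl
  have hadj : adj (α e₁) (α e₂) := (hα _ _).mpr (Or.inl (h1.trans h2.symm))
  have hall : ∀ e : Flag, e.1.1 = p → adj (α e) (α e₁) ∧ adj (α e) (α e₂) := fun e he =>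
    ⟨(hα _ _).mpr (Or.inl (he.trans h1.symm)), (hα _ _).mpr (Or.inl (he.trans h2.symm))⟩
  rcases hadj with h | h
  · left
    have key : ∀ e : Flag, e.1.1 = p → (α e).1.1 = (α e₁).1.1 := by
      intro e he
      obtain ⟨h3, h4⟩ := hall e he
      rcases h3 with h3 | h3
      · exact h3
      · rcases h4 with h4 | h4
        · exact h4.trans h.symm
        · exact absurd (flag_ext h (h3.symm.trans h4)) hne'
    intro e e' he he'
    rw [key e he, key e' he']
  · right
    have key : ∀ e : Flag, e.1.1 = p → (α e).1.2 = (α e₁).1.2 := by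
      intro e he
      obtain ⟨h3, h4⟩ := hall e he
      rcases h3 with h3 | h3
      · rcases h4 with h4 | h4
        · exact absurd (flag_ext (h3.symm.trans h4) h) hne'
        · exact h4.trans h.symm
      · exact h3
    intro e e' he he'
    rw [key e he, key e' he']

/-- Images of a line star have a common point or a common line. -/
theorem star_line (l : Fin 13) :
    (∀ e e' : Flag, e.1.2 = l → e'.1.2 = l → (α e).1.2 = (α e').1.2) ∨
      (∀ e e' : Flag, e.1.2 = l → e'.1.2 = l → (α e).1.1 = (α e').1.1) := by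
  obtain ⟨e₁, e₂, h1, h2, hne⟩ := exists_two_at_line l
  have hne' : α e₁ ≠ α e₂ := fun h => by
    have := α.injective h
    rw [this] at hne
    exact hne rfl
  have hadj : adj (α e₁) (α e₂) := (hα _ _).mpr (Or.inr (h1.trans h2.symm))
  have hall : ∀ e : Flag, e.1.2 = l → adj (α e) (α e₁) ∧ adj (α e) (α e₂) := fun e he =>
    ⟨(hα _ _).mpr (Or.inr (he.trans h1.symm)), (hα _ _).mpr (Or.inr (he.trans h2.symm))⟩
  rcases hadj with h | h
  · right
    have key : ∀ e : Flag, e.1.2 = l → (α e).1.1 = (α e₁).1.1 := by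
      intro e he
      obtain ⟨h3, h4⟩ := hall e he
      rcases h3 with h3 | h3
      · exact h3
      · rcases h4 with h4 | h4
        · exact h4.trans h.symm
        · exact absurd (flag_ext h (h3.symm.trans h4)) hne'
    intro e e' he he'
    rw [key e he, key e' he']
  · left
    have key : ∀ e : Flag, e.1.2 = l → (α e).1.2 = (α e₁).1.2 := by
      intro e he
      obtain ⟨h3, h4⟩ := hall e he
      rcases h3 with h3 | h3
      · rcases h4 with h4 | h4
        · exact absurd (flag_ext (h3.symm.trans h4) h) hne'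
        · exact h4.trans h.symm
      · exact h3
    intro e e' he he'
    rw [key e he, key e' he']

/-- A point star going to a point star forces an incident line star to go to a line star. -/
theorem not_both_point {p l : Fin 13} (hpl : inc p l)
    (h1 : ∀ e e' : Flag, e.1.1 = p → e'.1.1 = p → (α e).1.1 = (α e').1.1)
    (h2 : ∀ e e' : Flag, e.1.2 = l → e'.1.2 = l → (α e).1.1 = (α e').1.1) : False := by
  obtain ⟨m, hm, hm2⟩ := two_lines p l hpl
  obtain ⟨q, hq, hq2⟩ := two_points l p hpl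
  let e₀ : Flag := ⟨(p, l), hpl⟩
  let e₁ : Flag := ⟨(p, m), hm2⟩
  let e₂ : Flag := ⟨(q, l), hq2⟩
  have h3 : (α e₁).1.1 = (α e₂).1.1 :=
    (h1 e₁ e₀ rfl rfl).trans (h2 e₀ e₂ rfl rfl)
  have h4 : adj e₁ e₂ := (hα _ _).mp (Or.inl h3)
  rcases h4 with h4 | h4
  · exact hq (Eq.symm h4)
  · exact hm h4

theorem not_both_line {p l : Fin 13} (hpl : inc p l)
    (h1 : ∀ e e' : Flag, e.1.1 = p → e'.1.1 = p → (α e).1.2 = (α e').1.2)
    (h2 : ∀ e e' : Flag, e.1.2 = l → e'.1.2 = l → (α e).1.2 = (α e').1.2) : False := by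
  obtain ⟨m, hm, hm2⟩ := two_lines p l hpl
  obtain ⟨q, hq, hq2⟩ := two_points l p hpl
  let e₀ : Flag := ⟨(p, l), hpl⟩
  let e₁ : Flag := ⟨(p, m), hm2⟩
  let e₂ : Flag := ⟨(q, l), hq2⟩
  have h3 : (α e₁).1.2 = (α e₂).1.2 :=
    (h1 e₁ e₀ rfl rfl).trans (h2 e₀ e₂ rfl rfl)
  have h4 : adj e₁ e₂ := (hα _ _).mp (Or.inr h3)
  rcases h4 with h4 | h4
  · exact hq (Eq.symm h4)
  · exact hm h4

/-- Automorphisms of the flag graph keep or swap points and lines. -/
theorem keep_or_swap : Keep α ∨ Swap α := by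
  rcases star_point hα 0 with h0 | h0
  · left
    -- all lines through the point 0 go to line stars
    have hL0 : ∀ l, inc 0 l →
        ∀ e e' : Flag, e.1.2 = l → e'.1.2 = l → (α e).1.2 = (α e').1.2 := by
      intro l hl
      rcases star_line hα l with h | h
      · exact h
      · exact (not_both_point hα hl h0 h).elim
    have hP : ∀ p, ∀ e e' : Flag, e.1.1 = p → e'.1.1 = p → (α e).1.1 = (α e').1.1 := by
      intro p
      obtain ⟨l, h1, h2⟩ := exists_line 0 p
      rcases star_point hα p with h | h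
      · exact h
      · exact (not_both_line hα h2 h (hL0 l h1)).elim
    have hL : ∀ l, ∀ e e' : Flag, e.1.2 = l → e'.1.2 = l → (α e).1.2 = (α e').1.2 := by
      intro l
      obtain ⟨p, hp⟩ := point_on l
      rcases star_line hα l with h | h
      · exact h
      · exact (not_both_point hα hp (hP p) h).elim
    exact ⟨fun e e' he => hP _ e e' rfl he.symm, fun e e' he => hL _ e e' rfl he.symm⟩
  · right
    have hL0 : ∀ l, inc 0 l →
        ∀ e e' : Flag, e.1.2 = l → e'.1.2 = l → (α e).1.1 = (α e').1.1 := by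
      intro l hl
      rcases star_line hα l with h | h
      · exact (not_both_line hα hl h0 h).elim
      · exact h
    have hP : ∀ p, ∀ e e' : Flag, e.1.1 = p → e'.1.1 = p → (α e).1.2 = (α e').1.2 := by
      intro p
      obtain ⟨l, h1, h2⟩ := exists_line 0 p
      rcases star_point hα p with h | h
      · exact (not_both_point hα h2 h (hL0 l h1)).elim
      · exact h
    have hL : ∀ l, ∀ e e' : Flag, e.1.2 = l → e'.1.2 = l → (α e).1.1 = (α e').1.1 := by
      intro l
      obtain ⟨p, hp⟩ := point_on l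
      rcases star_line hα l with h | h
      · exact (not_both_line hα hp (hP p) h).elim
      · exact h
    exact ⟨fun e e' he => hP _ e e' rfl he.symm, fun e e' he => hL _ e e' rfl he.symm⟩

end dichotomy

/-- Keep and swap are exclusive. -/
theorem not_keep_and_swap {α : Perm Flag} (h1 : Keep α) (h2 : Swap α) : False := by
  obtain ⟨e, e', h3, h5, hne⟩ := exists_two_at_point 0
  have h4 : α e = α e' := flag_ext (h1.1 e e' (h3.trans h5.symm)) (h2.1 e e' (h3.trans h5.symm))
  rw [α.injective h4] at hne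
  exact hne rfl

theorem keep_mul {α β : Perm Flag} (h1 : Keep α) (h2 : Keep β) : Keep (α * β) :=
  ⟨fun e e' h => h1.1 _ _ (h2.1 e e' h), fun e e' h => h1.2 _ _ (h2.2 e e' h)⟩

theorem swap_mul {α β : Perm Flag} (h1 : Swap α) (h2 : Swap β) : Keep (α * β) :=
  ⟨fun e e' h => h1.2 _ _ (h2.1 e e' h), fun e e' h => h1.1 _ _ (h2.2 e e' h)⟩

theorem isAut_mul {α β : Perm Flag} (h1 : IsAut α) (h2 : IsAut β) : IsAut (α * β) :=
  fun e e' => (h1 _ _).trans (h2 _ _)

theorem isAut_inv {α : Perm Flag} (h1 : IsAut α) : IsAut α⁻¹ := fun e e' => by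
  rw [← h1 (α⁻¹ e) (α⁻¹ e')]
  simp

theorem adj_refl (e : Flag) : adj e e := Or.inl rfl

/-- Backward direction of keep. -/
theorem keep_back {α : Perm Flag} (h1 : IsAut α) (h2 : Keep α) {e e' : Flag}
    (h : (α e).1.1 = (α e').1.1) : e.1.1 = e'.1.1 := by
  rcases (h1 e e').mp (Or.inl h) with h3 | h3
  · exact h3
  · have := α.injective (flag_ext h (h2.2 e e' h3))
    rw [this]

theorem keep_back2 {α : Perm Flag} (h1 : IsAut α) (h2 : Keep α) {e e' : Flag}
    (h : (α e).1.2 = (α e').1.2) : e.1.2 = e'.1.2 := by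
  rcases (h1 e e').mp (Or.inr h) with h3 | h3
  · have := α.injective (flag_ext (h2.1 e e' h3) h)
    rw [this]
  · exact h3

theorem keep_inv {α : Perm Flag} (h1 : IsAut α) (h2 : Keep α) : Keep α⁻¹ := by
  refine ⟨fun e e' h => ?_, fun e e' h => ?_⟩
  · apply keep_back h1 h2
    simpa using h
  · apply keep_back2 h1 h2
    simpa using h

/-- The group of automorphisms of the flag graph keeping points and lines. -/
def AA : Subgroup (Perm Flag) where
  carrier := {α | IsAut α ∧ Keep α}
  mul_mem' := fun h1 h2 => ⟨isAut_mul h1.1 h2.1, keep_mul h1.2 h2.2⟩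
  one_mem' := ⟨fun _ _ => Iff.rfl, fun _ _ h => h, fun _ _ h => h⟩
  inv_mem' := fun h1 => ⟨isAut_inv h1.1, keep_inv h1.1 h1.2⟩

/-! ### Bound on the group -/

/-- chosen flag at a point -/
noncomputable def rp (p : Fin 13) : Flag := ⟨(p, (line_through p).choose), (line_through p).choose_spec⟩

/-- chosen flag on a line -/
noncomputable def rl (l : Fin 13) : Flag := ⟨((point_on l).choose, l), (point_on l).choose_spec⟩

/-- Action on points. -/
noncomputable def gP (α : Perm Flag) (p : Fin 13) : Fin 13 := (α (rp p)).1.1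

/-- Action on lines. -/
noncomputable def gL (α : Perm Flag) (l : Fin 13) : Fin 13 := (α (rl l)).1.2

section bound

variable {α β : Perm Flag}

theorem apply_fst (h : Keep α) (e : Flag) : (α e).1.1 = gP α e.1.1 := h.1 _ _ rfl

theorem apply_snd (h : Keep α) (e : Flag) : (α e).1.2 = gL α e.1.2 := h.2 _ _ rfl

theorem gP_inj (h1 : IsAut α) (h2 : Keep α) : Function.Injective (gP α) := by
  intro p q h
  exact keep_back h1 h2 (e := rp p) (e' := rp q) h

theorem gL_inj (h1 : IsAut α) (h2 : Keep α) : Function.Injective (gL α) := by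
  intro p q h
  exact keep_back2 h1 h2 (e := rl p) (e' := rl q) h

/-- incidence is preserved -/
theorem inc_map (h2 : Keep α) {p l : Fin 13} (h : inc p l) : inc (gP α p) (gL α l) := by
  have := (α ⟨(p, l), h⟩).2
  rwa [apply_fst h2, apply_snd h2] at this

theorem inc_map_iff (h1 : IsAut α) (h2 : Keep α) {p l : Fin 13} :
    inc (gP α p) (gL α l) ↔ inc p l := by
  refine ⟨fun h => ?_, inc_map h2⟩
  let e : Flag := α⁻¹ ⟨(gP α p, gL α l), h⟩
  have he : α e = ⟨(gP α p, gL α l), h⟩ := by simp [e]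
  have h3 : gP α e.1.1 = gP α p := by
    rw [← apply_fst h2, he]
  have h4 : gL α e.1.2 = gL α l := by
    rw [← apply_snd h2, he]
  have h5 := gP_inj h1 h2 h3
  have h6 := gL_inj h1 h2 h4
  have := e.2
  rwa [h5, h6] at this

theorem eq_of_gP_gL (h1 : Keep α) (h2 : Keep β) (h3 : gP α = gP β) (h4 : gL α = gL β) : α = β := by
  ext1 e
  apply flag_ext
  · rw [apply_fst h1, apply_fst h2, h3]
  · rw [apply_snd h1, apply_snd h2, h4]

theorem fixL {g k : Fin 13 → Fin 13} (hg : ∀ {p l}, inc p l → inc (g p) (k l))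
    {a b l : Fin 13} (hab : a ≠ b) (ha : inc a l) (hb : inc b l)
    (fa : g a = a) (fb : g b = b) : k l = l := by
  have h1 := hg ha
  have h2 := hg hb
  rw [fa] at h1
  rw [fb] at h2
  exact line_unique a b _ _ hab h1 h2 ha hb

theorem fixP {g k : Fin 13 → Fin 13} (hg : ∀ {p l}, inc p l → inc (g p) (k l))
    {l m p : Fin 13} (hlm : l ≠ m) (hl : inc p l) (hm : inc p m)
    (fl : k l = l) (fm : k m = m) : g p = p := by
  have h1 := hg hl
  have h2 := hg hm
  rw [fl] at h1
  rw [fm] at h2
  exact point_unique l m _ _ hlm h1 h2 hl hm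

/-- The frame closure. -/
theorem frame_closure {g k : Fin 13 → Fin 13} (hg : ∀ {p l}, inc p l → inc (g p) (k l))
    (f0 : g 0 = 0) (f1 : g 1 = 1) (f2 : g 2 = 2) (f3 : g 9 = 9) :
    (∀ p, g p = p) ∧ (∀ l, k l = l) := by
  have L0 : k 0 = 0 := fixL hg (a := 1) (b := 2) (by decide) (by decide) (by decide) f1 f2
  have L1 : k 1 = 1 := fixL hg (a := 0) (b := 2) (by decide) (by decide) (by decide) f0 f2
  have L2 : k 2 = 2 := fixL hg (a := 0) (b := 1) (by decide) (by decide) (by decide) f0 f1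
  have L4 : k 4 = 4 := fixL hg (a := 2) (b := 9) (by decide) (by decide) (by decide) f2 f3
  have L6 : k 6 = 6 := fixL hg (a := 1) (b := 9) (by decide) (by decide) (by decide) f1 f3
  have L8 : k 8 = 8 := fixL hg (a := 0) (b := 9) (by decide) (by decide) (by decide) f0 f3
  have P3 : g 3 = 3 := fixP hg (l := 2) (m := 4) (by decide) (by decide) (by decide) L2 L4
  have P5 : g 5 = 5 := fixP hg (l := 1) (m := 6) (by decide) (by decide) (by decide) L1 L6
  have P7 : g 7 = 7 := fixP hg (l := 0) (m := 8) (by decide) (by decide) (by decide) L0 L8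
  have L10 : k 10 = 10 := fixL hg (a := 5) (b := 7) (by decide) (by decide) (by decide) P5 P7
  have L11 : k 11 = 11 := fixL hg (a := 3) (b := 7) (by decide) (by decide) (by decide) P3 P7
  have L12 : k 12 = 12 := fixL hg (a := 3) (b := 5) (by decide) (by decide) (by decide) P3 P5
  have P4 : g 4 = 4 := fixP hg (l := 2) (m := 10) (by decide) (by decide) (by decide) L2 L10
  have P6 : g 6 = 6 := fixP hg (l := 1) (m := 11) (by decide) (by decide) (by decide) L1 L11
  have P8 : g 8 = 8 := fixP hg (l := 0) (m := 12) (by decide) (by decide) (by decide) L0 L12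
  have P10 : g 10 = 10 := fixP hg (l := 4) (m := 10) (by decide) (by decide) (by decide) L4 L10
  have P11 : g 11 = 11 := fixP hg (l := 6) (m := 11) (by decide) (by decide) (by decide) L6 L11
  have P12 : g 12 = 12 := fixP hg (l := 8) (m := 12) (by decide) (by decide) (by decide) L8 L12
  have L3 : k 3 = 3 := fixL hg (a := 2) (b := 4) (by decide) (by decide) (by decide) f2 P4
  have L5 : k 5 = 5 := fixL hg (a := 1) (b := 6) (by decide) (by decide) (by decide) f1 P6
  have L7 : k 7 = 7 := fixL hg (a := 0) (b := 8) (by decide) (by decide) (by decide) f0 P8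
  have L9 : k 9 = 9 := fixL hg (a := 9) (b := 4) (by decide) (by decide) (by decide) f3 P4
  constructor
  · intro p
    fin_cases p <;> assumption
  · intro l
    fin_cases l <;> assumption

/-- collinear points -/
def col (a b c : Fin 13) : Prop := ∃ l, inc a l ∧ inc b l ∧ inc c l

instance : ∀ a b c, Decidable (col a b c) := fun a b c => by unfold col; infer_instance

/-- quadrangles -/
def qd (q : Fin 13 × Fin 13 × Fin 13 × Fin 13) : Prop :=
  q.1 ≠ q.2.1 ∧ q.1 ≠ q.2.2.1 ∧ q.1 ≠ q.2.2.2 ∧ q.2.1 ≠ q.2.2.1 ∧ q.2.1 ≠ q.2.2.2 ∧ q.2.2.1 ≠ q.2.2.2 ∧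
    ¬ col q.1 q.2.1 q.2.2.1 ∧ ¬ col q.1 q.2.1 q.2.2.2 ∧ ¬ col q.1 q.2.2.1 q.2.2.2 ∧
    ¬ col q.2.1 q.2.2.1 q.2.2.2

instance : DecidablePred qd := fun q => by unfold qd; infer_instance

/-- the set of quadrangles -/
def qdSet : Finset (Fin 13 × Fin 13 × Fin 13 × Fin 13) := Finset.univ.filter qd

theorem mem_qdSet {q} : q ∈ qdSet ↔ qd q := by simp [qdSet]

/-- bit masks of the lines through a point -/
def mask : Fin 13 → ℕ := ![390,101,27,6164,1548,5186,2594,3329,4737,848,1200,2248,4392]

theorem col_iff_mask : ∀ a b c, col a b c ↔ (mask a &&& mask b &&& mask c) ≠ 0 := by decide +kernel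

/-- quadrangles, fast version -/
def qdB (q : Fin 13 × Fin 13 × Fin 13 × Fin 13) : Prop :=
  q.1 ≠ q.2.1 ∧ q.1 ≠ q.2.2.1 ∧ q.1 ≠ q.2.2.2 ∧ q.2.1 ≠ q.2.2.1 ∧ q.2.1 ≠ q.2.2.2 ∧ q.2.2.1 ≠ q.2.2.2 ∧
    (mask q.1 &&& mask q.2.1 &&& mask q.2.2.1) = 0 ∧ (mask q.1 &&& mask q.2.1 &&& mask q.2.2.2) = 0 ∧
    (mask q.1 &&& mask q.2.2.1 &&& mask q.2.2.2) = 0 ∧ (mask q.2.1 &&& mask q.2.2.1 &&& mask q.2.2.2) = 0

instance : DecidablePred qdB := fun q => by unfold qdB; infer_instance

theorem card_qdB : (Finset.univ.filter qdB).card = 5616 := by decide +kernel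

theorem qd_iff (q) : qd q ↔ qdB q := by
  unfold qd qdB
  simp only [col_iff_mask, ne_eq, not_not]

theorem card_qd : qdSet.card = 5616 := by
  have : qdSet = Finset.univ.filter qdB := by
    ext q
    simp only [mem_qdSet, Finset.mem_filter, Finset.mem_univ, true_and, qd_iff]
  rw [this, card_qdB]

/-- The map to frames. -/
noncomputable def frameOf (α : Perm Flag) : Fin 13 × Fin 13 × Fin 13 × Fin 13 :=
  (gP α 0, gP α 1, gP α 2, gP α 9)

theorem col_map (h1 : IsAut α) (h2 : Keep α) {a b c : Fin 13} (h : col (gP α a) (gP α b) (gP α c)) :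
    col a b c := by
  obtain ⟨l, h3, h4, h5⟩ := h
  have hsurj : Function.Surjective (gL α) := Finite.injective_iff_surjective.mp (gL_inj h1 h2)
  obtain ⟨m, rfl⟩ := hsurj l
  exact ⟨m, (inc_map_iff h1 h2).mp h3, (inc_map_iff h1 h2).mp h4, (inc_map_iff h1 h2).mp h5⟩

theorem frameOf_qd (h1 : IsAut α) (h2 : Keep α) : qd (frameOf α) := by
  have i := gP_inj h1 h2
  refine ⟨i.ne (by decide), i.ne (by decide), i.ne (by decide), i.ne (by decide), i.ne (by decide),
    i.ne (by decide), fun h => ?_, fun h => ?_, fun h => ?_, fun h => ?_⟩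
  · exact absurd (col_map h1 h2 h) (by decide +kernel)
  · exact absurd (col_map h1 h2 h) (by decide +kernel)
  · exact absurd (col_map h1 h2 h) (by decide +kernel)
  · exact absurd (col_map h1 h2 h) (by decide +kernel)

theorem gP_mul (h : Keep β) (p : Fin 13) : gP (β * α) p = gP β (gP α p) := by
  show (β (α (rp p))).1.1 = _
  rw [apply_fst h]
  rfl

theorem gL_mul (h : Keep β) (l : Fin 13) : gL (β * α) l = gL β (gL α l) := by
  show (β (α (rl l))).1.2 = _
  rw [apply_snd h]
  rfl

theorem gP_one (p : Fin 13) : gP 1 p = p := rfl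

theorem gL_one (l : Fin 13) : gL 1 l = l := rfl

theorem frameOf_inj (h1 : IsAut α) (h2 : Keep α) (h3 : IsAut β) (h4 : Keep β)
    (h : frameOf α = frameOf β) : α = β := by
  -- γ = β⁻¹ α fixes the frame
  set γ := β⁻¹ * α with hγ
  have hβi := keep_inv h3 h4
  have hγk : Keep γ := keep_mul hβi h2
  have hγa : IsAut γ := isAut_mul (isAut_inv h3) h1
  have hαe : α = β * γ := by simp [hγ]
  have hfr : ∀ p, gP α p = gP β p → gP γ p = p := by
    intro p hp
    apply gP_inj h3 h4
    rw [← gP_mul h4, ← hαe, hp]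
  simp only [frameOf, Prod.mk.injEq] at h
  obtain ⟨a, b, c, d⟩ := h
  have hcl := frame_closure (g := gP γ) (k := gL γ) (fun h => inc_map hγk h) (hfr _ a) (hfr _ b) (hfr _ c) (hfr _ d)
  have hγ1 : γ = 1 := eq_of_gP_gL hγk ⟨fun _ _ h => h, fun _ _ h => h⟩ (funext hcl.1) (funext hcl.2)
  rw [hαe, hγ1, mul_one]

/-- The bound. -/
theorem card_AA_le : Nat.card AA ≤ 5616 := by
  have hinj : Function.Injective (fun α : AA =>
      (⟨frameOf α.1, mem_qdSet.mpr (frameOf_qd α.2.1 α.2.2)⟩ : {q // q ∈ qdSet})) := by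
    intro α β h
    have h1 : frameOf α.1 = frameOf β.1 := congrArg Subtype.val h
    exact Subtype.ext (frameOf_inj α.2.1 α.2.2 β.2.1 β.2.2 h1)
  have h2 := Nat.card_le_card_of_injective _ hinj
  have h3 : Nat.card {q // q ∈ qdSet} = 5616 := by
    rw [Nat.card_eq_fintype_card, Fintype.card_coe, card_qd]
  omega

end bound

end Cfsg.Agent.Lib.L33Comm.Plane
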