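/-
Transvections of `SL₃(3)` indexed by the flags of the plane of order 3.
-/
import Cfsg.Agent.Lib.L33Comm.Plane
import Cfsg.Agent.Lib.M11.SL3
import Cfsg.Agent.Lib.Classical.Transvections

set_option autoImplicit false
set_option maxRecDepth 100000
set_option linter.unusedSectionVars false

namespace Cfsg.Agent.Lib.L33Comm.Tv

open Matrix Subgroup Cfsg.Agent.Lib.L33Comm.Plane

/-- `SL₃(3)`. -/
abbrev X : Type := Matrix.SpecialLinearGroup (Fin 3) (ZMod 3)

theorem card_X : Nat.card X = 5616 := Cfsg.Agent.Lib.M11.SL3.card_X₀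

/-- A sign. -/
def sgn (b : Bool) : ZMod 3 := if b then 1 else -1

/-- The matrix of a transvection. -/
def tauM (p l : Fin 13) (b : Bool) : Matrix (Fin 3) (Fin 3) (ZMod 3) :=
  1 + vecMulVec (sgn b • pv p) (pv l)

instance : DecidableRel adj := fun e e' => by unfold adj; infer_instance

theorem det_tv (v w : Fin 3 → ZMod 3) (h : w 0 * v 0 + w 1 * v 1 + w 2 * v 2 = 0) :
    (1 + vecMulVec v w).det = 1 := by
  rw [Matrix.det_fin_three]
  simp only [Matrix.add_apply, Matrix.one_apply, vecMulVec_apply]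
  simp
  linear_combination (1 + 0 * v 0) * h

theorem det_tauM (e : Flag) (b : Bool) : (tauM e.1.1 e.1.2 b).det = 1 := by
  apply det_tv
  have h := e.2
  unfold inc at h
  simp only [Pi.smul_apply, smul_eq_mul]
  linear_combination sgn b * h

/-- The transvection attached to a flag and a sign. -/
def tau (e : Flag) (b : Bool) : X := ⟨tauM e.1.1 e.1.2 b, det_tauM e b⟩

theorem comm_table : ∀ e e' : Flag, ∀ b b' : Bool,
    (tauM e.1.1 e.1.2 b * tauM e'.1.1 e'.1.2 b' = tauM e'.1.1 e'.1.2 b' * tauM e.1.1 e.1.2 b) ↔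
      adj e e' := by
  decide +kernel

theorem inj_table : ∀ e e' : Flag, ∀ b b' : Bool,
    tauM e.1.1 e.1.2 b = tauM e'.1.1 e'.1.2 b' → e = e' ∧ b = b' := by
  decide +kernel

theorem sq_table : ∀ e : Flag, ∀ b : Bool,
    tauM e.1.1 e.1.2 b * tauM e.1.1 e.1.2 b = tauM e.1.1 e.1.2 (!b) := by
  decide +kernel

theorem inv_table : ∀ e : Flag, ∀ b : Bool,
    tauM e.1.1 e.1.2 b * tauM e.1.1 e.1.2 (!b) = 1 := by
  decide +kernel

theorem ne_table : ∀ e : Flag, ∀ b : Bool, tauM e.1.1 e.1.2 b ≠ 1 := by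
  decide +kernel

theorem tau_comm (e e' : Flag) (b b' : Bool) : Commute (tau e b) (tau e' b') ↔ adj e e' := by
  rw [← comm_table e e' b b']
  exact Subtype.ext_iff

theorem tau_inj {e e' : Flag} {b b' : Bool} (h : tau e b = tau e' b') : e = e' ∧ b = b' :=
  inj_table e e' b b' (congrArg Subtype.val h)

theorem tau_sq (e : Flag) (b : Bool) : tau e b * tau e b = tau e (!b) :=
  Subtype.ext (sq_table e b)

theorem tau_inv (e : Flag) (b : Bool) : (tau e b)⁻¹ = tau e (!b) := by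
  apply inv_eq_of_mul_eq_one_right
  exact Subtype.ext (inv_table e b)

theorem tau_ne_one (e : Flag) (b : Bool) : tau e b ≠ 1 := fun h =>
  ne_table e b (congrArg Subtype.val h)

theorem tau_cube (e : Flag) (b : Bool) : tau e b ^ 3 = 1 := by
  rw [pow_succ, pow_two, tau_sq, ← tau_inv]
  simp

theorem tau_inv_ne (e : Flag) (b : Bool) : (tau e b)⁻¹ ≠ tau e b := by
  rw [tau_inv]
  intro h
  have := (tau_inj h).2
  cases b <;> simp at this

/-! ### Normal form for transvections -/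

theorem vec_normal : ∀ v : Fin 3 → ZMod 3, v ≠ 0 → ∃ p : Fin 13, ∃ b : Bool, v = sgn b • pv p := by
  decide +kernel

theorem sgn_mul (b c : Bool) : sgn b * sgn c = sgn (b == c) := by
  revert b c; decide

theorem sgn_sq (b : Bool) : sgn b * sgn b = 1 := by
  revert b; decide

/-- A general transvection is of the form `tau`. -/
theorem tv_normal (v w : Fin 3 → ZMod 3) (hv : v ≠ 0) (hw : w ≠ 0) (h : w ⬝ᵥ v = 0) :
    ∃ (e : Flag) (b : Bool), 1 + vecMulVec v w = tauM e.1.1 e.1.2 b := by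
  obtain ⟨p, b, rfl⟩ := vec_normal v hv
  obtain ⟨l, c, rfl⟩ := vec_normal w hw
  have hinc : inc p l := by
    unfold inc
    simp only [dotProduct, Fin.sum_univ_three, Pi.smul_apply, smul_eq_mul] at h
    have h2 : sgn b * sgn c * (pv p 0 * pv l 0 + pv p 1 * pv l 1 + pv p 2 * pv l 2) = 0 := by
      linear_combination h
    have h3 := sgn_mul b c
    have h4 : ∀ b c : Bool, sgn (b == c) ≠ 0 := by decide
    rw [h3] at h2
    exact (mul_eq_zero.mp h2).resolve_left (h4 b c)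
  refine ⟨⟨(p, l), hinc⟩, b == c, ?_⟩
  show _ = 1 + _
  congr 1
  ext i j
  simp only [vecMulVec_apply, Pi.smul_apply, smul_eq_mul]
  rw [← sgn_mul]
  ring

/-- Conjugates of transvections are transvections. -/
theorem conj_tau (g : X) (e : Flag) (b : Bool) : ∃ (e' : Flag) (b' : Bool), g * tau e b * g⁻¹ = tau e' b' := by
  set v : Fin 3 → ZMod 3 := (g : Matrix (Fin 3) (Fin 3) (ZMod 3)) *ᵥ (sgn b • pv e.1.1) with hv
  set w : Fin 3 → ZMod 3 := pv e.1.2 ᵥ* ((g⁻¹ : X) : Matrix (Fin 3) (Fin 3) (ZMod 3)) with hw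
  have hgg : ((g⁻¹ : X) : Matrix (Fin 3) (Fin 3) (ZMod 3)) * (g : Matrix (Fin 3) (Fin 3) (ZMod 3)) = 1 := by
    rw [← Matrix.SpecialLinearGroup.coe_mul, inv_mul_cancel, Matrix.SpecialLinearGroup.coe_one]
  have hgg' : (g : Matrix (Fin 3) (Fin 3) (ZMod 3)) * ((g⁻¹ : X) : Matrix (Fin 3) (Fin 3) (ZMod 3)) = 1 := by
    rw [← Matrix.SpecialLinearGroup.coe_mul, mul_inv_cancel, Matrix.SpecialLinearGroup.coe_one]
  have hv0 : v ≠ 0 := by
    intro h0
    have h1 : ((g⁻¹ : X) : Matrix (Fin 3) (Fin 3) (ZMod 3)) *ᵥ v = sgn b • pv e.1.1 := by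
      rw [hv, Matrix.mulVec_mulVec, hgg, Matrix.one_mulVec]
    rw [h0, Matrix.mulVec_zero] at h1
    have h2 : ∀ (p : Fin 13) (b : Bool), sgn b • pv p ≠ 0 := by decide +kernel
    exact h2 _ _ h1.symm
  have hw0 : w ≠ 0 := by
    intro h0
    have h1 : w ᵥ* (g : Matrix (Fin 3) (Fin 3) (ZMod 3)) = pv e.1.2 := by
      rw [hw, Matrix.vecMul_vecMul, hgg, Matrix.vecMul_one]
    rw [h0, Matrix.zero_vecMul] at h1
    have h2 : ∀ (p : Fin 13), pv p ≠ 0 := by decide +kernel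
    exact h2 _ h1.symm
  have hd : w ⬝ᵥ v = 0 := by
    rw [hw, hv, Matrix.dotProduct_mulVec, Matrix.vecMul_vecMul, hgg, Matrix.vecMul_one]
    have h := e.2
    unfold inc at h
    simp only [dotProduct, Fin.sum_univ_three, Pi.smul_apply, smul_eq_mul]
    linear_combination sgn b * h
  obtain ⟨e', b', h⟩ := tv_normal v w hv0 hw0 hd
  refine ⟨e', b', Subtype.ext ?_⟩
  show (g : Matrix (Fin 3) (Fin 3) (ZMod 3)) * tauM e.1.1 e.1.2 b * ((g⁻¹ : X) : Matrix (Fin 3) (Fin 3) (ZMod 3)) = tauM e'.1.1 e'.1.2 b'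
  rw [← h]
  unfold tauM
  rw [mul_add, add_mul, mul_one, hgg', Matrix.mul_vecMulVec, Matrix.vecMulVec_mul]

/-! ### The unipotent group -/

/-- Upper unitriangular matrices. -/
def uuM (a b c : ZMod 3) : Matrix (Fin 3) (Fin 3) (ZMod 3) := !![1, a, b; 0, 1, c; 0, 0, 1]

theorem det_uuM (a b c : ZMod 3) : (uuM a b c).det = 1 := by
  revert a b c; decide +kernel

/-- Upper unitriangular elements. -/
def uu (a b c : ZMod 3) : X := ⟨uuM a b c, det_uuM a b c⟩

theorem uu_mul (a b c a' b' c' : ZMod 3) : uu a b c * uu a' b' c' = uu (a + a') (b + b' + a * c') (c + c') := by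
  apply Subtype.ext
  show uuM a b c * uuM a' b' c' = uuM _ _ _
  revert a b c a' b' c'
  decide +kernel

theorem uu_one : uu 0 0 0 = 1 := by
  apply Subtype.ext
  show uuM 0 0 0 = 1
  decide +kernel

theorem uu_inv (a b c : ZMod 3) : (uu a b c)⁻¹ = uu (-a) (a * c - b) (-c) := by
  apply inv_eq_of_mul_eq_one_right
  rw [uu_mul, ← uu_one]
  congr 1 <;> ring

/-- The unipotent subgroup. -/
def U : Subgroup X where
  carrier := Set.range fun q : ZMod 3 × ZMod 3 × ZMod 3 => uu q.1 q.2.1 q.2.2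
  mul_mem' := by
    rintro _ _ ⟨q, rfl⟩ ⟨q', rfl⟩
    exact ⟨(_, _, _), (uu_mul _ _ _ _ _ _).symm⟩
  one_mem' := ⟨(0, 0, 0), uu_one⟩
  inv_mem' := by
    rintro _ ⟨q, rfl⟩
    exact ⟨(_, _, _), (uu_inv _ _ _).symm⟩

theorem uu_inj : Function.Injective fun q : ZMod 3 × ZMod 3 × ZMod 3 => uu q.1 q.2.1 q.2.2 := by
  have h : ∀ a b c a' b' c' : ZMod 3, uuM a b c = uuM a' b' c' → a = a' ∧ b = b' ∧ c = c' := by
    decide +kernel
  rintro ⟨a, b, c⟩ ⟨a', b', c'⟩ hh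
  obtain ⟨h1, h2, h3⟩ := h a b c a' b' c' (congrArg Subtype.val hh)
  simp [h1, h2, h3]

theorem card_U : Nat.card U = 27 := by
  have h1 : Nat.card U = Nat.card (ZMod 3 × ZMod 3 × ZMod 3) := by
    symm
    exact Nat.card_congr (Equiv.ofInjective _ uu_inj)
  rw [h1]
  simp

/-- The flag of the central transvection. -/
def e₀ : Flag := ⟨(0, 2), by decide⟩

/-- The central transvection. -/
def s₀ : X := tau e₀ true

theorem s₀_eq : s₀ = uu 0 1 0 := by
  apply Subtype.ext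
  show tauM 0 2 true = uuM 0 1 0
  decide +kernel

theorem uu_comm_s₀ : ∀ a b c : ZMod 3, Commute (uu a b c) s₀ := by
  intro a b c
  rw [s₀_eq]
  show _ * _ = _ * _
  rw [uu_mul, uu_mul]
  congr 1 <;> ring

theorem U_le : U ≤ centralizer ({s₀} : Set X) := by
  rintro _ ⟨q, rfl⟩
  rw [mem_centralizer_iff]
  intro y hy
  rw [Set.mem_singleton_iff.1 hy]
  exact (uu_comm_s₀ _ _ _).symm

/-- Matrices commuting with the two generators. -/
theorem comm_uu_entries (a b c d e f g h i : ZMod 3)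
    (h1 : !![a, b, c; d, e, f; g, h, i] * uuM 1 0 0 = uuM 1 0 0 * !![a, b, c; d, e, f; g, h, i])
    (h2 : !![a, b, c; d, e, f; g, h, i] * uuM 0 0 1 = uuM 0 0 1 * !![a, b, c; d, e, f; g, h, i])
    (hdet : (!![a, b, c; d, e, f; g, h, i] : Matrix (Fin 3) (Fin 3) (ZMod 3)).det = 1) :
    !![a, b, c; d, e, f; g, h, i] = uuM 0 c 0 := by
  have e00 := congrFun (congrFun h1 0) 1
  have e01 := congrFun (congrFun h1 0) 0
  have e02 := congrFun (congrFun h1 0) 2
  have e11 := congrFun (congrFun h1 1) 1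
  have e21 := congrFun (congrFun h1 2) 1
  have f01 := congrFun (congrFun h2 0) 2
  have f11 := congrFun (congrFun h2 1) 2
  have f21 := congrFun (congrFun h2 2) 2
  have f10 := congrFun (congrFun h2 1) 0
  have f12 := congrFun (congrFun h2 1) 1
  simp [Matrix.mul_apply, Fin.sum_univ_three, uuM] at e00 e01 e02 e11 e21 f01 f11 f21 f10 f12
  rw [Matrix.det_fin_three] at hdet
  simp at hdet
  have hd : d = 0 := by simpa using e01
  have hf : f = 0 := by simpa using e02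
  have hg : g = 0 := by simpa using e21
  have hb : b = 0 := by simpa using f01
  have hh : h = 0 := by simpa using f21
  subst hd hf hg hb hh
  have hae : a = e := by simpa using e00
  have hei : e = i := by simpa using f11
  subst hae hei
  have ha : a = 1 := by
    have h9 : ∀ a : ZMod 3, a * a * a = 1 → a = 1 := by decide
    exact h9 a (by simpa using hdet)
  subst ha
  ext x y
  fin_cases x <;> fin_cases y <;> simp [uuM]

theorem eta3 (m : Matrix (Fin 3) (Fin 3) (ZMod 3)) :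
    m = !![m 0 0, m 0 1, m 0 2; m 1 0, m 1 1, m 1 2; m 2 0, m 2 1, m 2 2] := by
  ext x y
  fin_cases x <;> fin_cases y <;> rfl

/-- The centralizer of the unipotent group. -/
theorem comm_U {m : X} (h1 : Commute m (uu 1 0 0)) (h2 : Commute m (uu 0 0 1)) :
    m = 1 ∨ m = s₀ ∨ m = s₀⁻¹ := by
  have h1' : (m : Matrix (Fin 3) (Fin 3) (ZMod 3)) * uuM 1 0 0 = uuM 1 0 0 * m := congrArg Subtype.val h1
  have h2' : (m : Matrix (Fin 3) (Fin 3) (ZMod 3)) * uuM 0 0 1 = uuM 0 0 1 * m := congrArg Subtype.val h2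
  have hd : (m : Matrix (Fin 3) (Fin 3) (ZMod 3)).det = 1 := m.2
  rw [eta3 m.1] at h1' h2' hd
  have h3 := comm_uu_entries _ _ _ _ _ _ _ _ _ h1' h2' hd
  rw [← eta3 m.1] at h3
  have h4 : m = uu 0 (m.1 0 2) 0 := Subtype.ext h3
  have h5 : ∀ c : ZMod 3, uu 0 c 0 = 1 ∨ uu 0 c 0 = s₀ ∨ uu 0 c 0 = s₀⁻¹ := by
    intro c
    have h6 : c = 0 ∨ c = 1 ∨ c = 2 := by revert c; decide
    rcases h6 with rfl | rfl | rfl
    · left; exact uu_one
    · right; left; exact s₀_eq.symm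
    · right; right
      rw [s₀_eq, uu_inv]
      congr 1
  rw [h4]
  exact h5 _

/-- Matrices conjugating the central transvection to the transvection at a given flag. -/
def gList : List (Matrix (Fin 3) (Fin 3) (ZMod 3)) :=
  [!![1,0,0;0,0,1;0,2,0], !![1,0,0;0,1,0;0,0,1], !![1,0,0;0,1,0;0,2,1], !![1,0,0;0,2,0;0,2,2], !![0,0,1;1,0,0;0,1,0], !![0,2,0;1,0,0;0,0,1], !![0,2,0;1,0,0;0,1,1], !![0,1,0;1,0,0;0,1,2], !![0,0,1;0,2,0;1,0,0], !![0,1,0;0,0,1;1,0,0], !![0,1,0;0,2,1;1,0,0], !![0,2,0;0,2,1;2,0,0], !![1,0,0;1,1,0;0,0,1], !![1,0,0;1,0,2;0,1,0], !![1,0,0;1,1,0;0,1,1], !![1,0,0;1,2,0;0,1,2], !![1,0,0;2,1,0;0,0,1], !![1,0,0;2,0,1;0,2,0], !![1,0,0;2,1,0;0,2,1], !![1,0,0;2,2,0;0,2,2], !![1,0,0;0,0,1;1,2,0], !![1,0,0;0,2,0;1,0,2], !![1,0,0;0,2,0;1,2,2], !![1,0,0;0,2,0;1,1,2], !![1,0,0;0,0,1;2,2,0], !![1,0,0;0,1,0;2,0,1], !![1,0,0;0,1,0;2,2,1], !![1,0,0;0,1,0;2,1,1], !![0,0,1;1,0,0;1,1,0], !![0,1,0;1,0,0;1,0,2], !![0,1,0;1,0,0;1,1,2],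 !![0,2,0;1,0,0;1,1,1], !![0,0,1;1,0,0;2,1,0], !![0,2,0;1,0,0;2,0,1], !![0,2,0;1,0,0;2,1,1], !![0,1,0;1,0,0;2,1,2], !![1,0,0;1,0,2;1,1,0], !![1,0,0;1,2,0;1,0,2], !![1,0,0;1,2,0;1,2,2], !![1,0,0;1,1,0;1,2,1], !![1,0,0;1,0,2;2,1,0], !![1,0,0;1,1,0;2,0,1], !![1,0,0;1,1,0;2,2,1], !![1,0,0;1,2,0;2,2,2], !![1,0,0;2,0,1;1,2,0], !![1,0,0;2,2,0;1,0,2], !![1,0,0;2,1,0;1,2,1], !![1,0,0;2,1,0;1,1,1], !![1,0,0;2,0,1;2,2,0], !![1,0,0;2,1,0;2,0,1], !![1,0,0;2,2,0;2,2,2], !![1,0,0;2,2,0;2,1,2]]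

theorem gList_table : ∀ e : Flag, ∃ g ∈ gList, g.det = 1 ∧ g * tauM 0 2 true = tauM e.1.1 e.1.2 true * g := by
  simp only [Matrix.det_fin_three]
  decide +kernel

/-- All transvections are conjugate to the central one or its inverse. -/
theorem exists_conj (e : Flag) : ∃ g : X, g * s₀ * g⁻¹ = tau e true := by
  obtain ⟨g, _, h1, h2⟩ := gList_table e
  let g' : X := ⟨g, h1⟩
  refine ⟨g', ?_⟩
  rw [mul_inv_eq_iff_eq_mul]
  exact Subtype.ext h2

end Cfsg.Agent.Lib.L33Comm.Tv
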