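/-
Centralizers in `SL₃(3)`: elements with centralizer of order divisible by 27 are the transvections.
-/
import Cfsg.Agent.Lib.L33Comm.Tv

set_option autoImplicit false
set_option maxRecDepth 100000
set_option linter.unusedSectionVars false

namespace Cfsg.Agent.Lib.L33Comm.Cent

open Matrix Subgroup Cfsg.Agent.Lib.L33Comm.Plane Cfsg.Agent.Lib.L33Comm.Tv
open scoped Pointwise

theorem mem_cent {G : Type*} [Group G] {s y : G} : y ∈ centralizer ({s} : Set G) ↔ Commute s y := by
  rw [mem_centralizer_iff]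
  constructor
  · intro h
    exact h s rfl
  · intro h z hz
    rw [Set.mem_singleton_iff.1 hz]
    exact h

theorem card_cent_conj {G : Type*} [Group G] (g s : G) :
    Nat.card (centralizer ({g * s * g⁻¹} : Set G)) = Nat.card (centralizer ({s} : Set G)) := by
  symm
  refine Nat.card_congr (Equiv.subtypeEquiv (MulAut.conj g).toEquiv ?_)
  intro y
  rw [mem_cent, mem_cent]
  simp only [MulEquiv.toEquiv_eq_coe, EquivLike.coe_coe, MulAut.conj_apply]
  constructor
  · intro h
    show g * s * g⁻¹ * (g * y * g⁻¹) = g * y * g⁻¹ * (g * s * g⁻¹)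
    have h' : s * y = y * s := h
    calc g * s * g⁻¹ * (g * y * g⁻¹) = g * (s * y) * g⁻¹ := by group
      _ = g * (y * s) * g⁻¹ := by rw [h']
      _ = g * y * g⁻¹ * (g * s * g⁻¹) := by group
  · intro h
    have h' : g * s * g⁻¹ * (g * y * g⁻¹) = g * y * g⁻¹ * (g * s * g⁻¹) := h
    have h2 : g * (s * y) * g⁻¹ = g * (y * s) * g⁻¹ := by
      calc g * (s * y) * g⁻¹ = g * s * g⁻¹ * (g * y * g⁻¹) := by group
        _ = g * y * g⁻¹ * (g * s * g⁻¹) := h'
        _ = g * (y * s) * g⁻¹ := by group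
    show s * y = y * s
    exact mul_left_cancel (mul_right_cancel h2)

theorem cent_inv {G : Type*} [Group G] (s : G) :
    centralizer ({s⁻¹} : Set G) = centralizer ({s} : Set G) := by
  ext y
  rw [mem_cent, mem_cent]
  exact Commute.inv_left_iff

/-- The elements with a centralizer of order divisible by 27. -/
def IsT (s : X) : Prop := s ≠ 1 ∧ 27 ∣ Nat.card (centralizer ({s} : Set X))

theorem dvd_card_s₀ : 27 ∣ Nat.card (centralizer ({s₀} : Set X)) := by
  rw [← card_U]
  exact Subgroup.card_dvd_of_le U_le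

theorem isT_tau (e : Flag) (b : Bool) : IsT (tau e b) := by
  refine ⟨tau_ne_one e b, ?_⟩
  obtain ⟨g, hg⟩ := exists_conj e
  have h1 : 27 ∣ Nat.card (centralizer ({tau e true} : Set X)) := by
    rw [← hg, card_cent_conj]
    exact dvd_card_s₀
  cases b
  · have h2 : tau e false = (tau e true)⁻¹ := by rw [tau_inv]; rfl
    rw [h2, cent_inv]
    exact h1
  · exact h1

theorem exists_tau_of_isT {s : X} (h : IsT s) : ∃ e b, s = tau e b := by
  classical
  obtain ⟨h1, h2⟩ := h
  set C := centralizer ({s} : Set X) with hC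
  have : Fact (Nat.Prime 3) := ⟨by norm_num⟩
  obtain ⟨Q, hQ⟩ := Sylow.exists_subgroup_card_pow_prime (G := C) (n := 3) 3 (by simpa using h2)
  set Q' : Subgroup X := Q.map C.subtype with hQ'
  have hQ'c : Nat.card Q' = 27 := by
    rw [hQ', Subgroup.card_map_of_injective C.subtype_injective, hQ]; norm_num
  have hp1 : IsPGroup 3 Q' := IsPGroup.of_card (n := 3) (by rw [hQ'c]; norm_num)
  have hp2 : IsPGroup 3 U := IsPGroup.of_card (n := 3) (by rw [card_U]; norm_num)
  obtain ⟨P₁, hP₁⟩ := hp1.exists_le_sylow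
  obtain ⟨P₂, hP₂⟩ := hp2.exists_le_sylow
  have hcardle : ∀ P : Sylow 3 X, Nat.card P ≤ 27 := by
    intro P
    obtain ⟨k, hk⟩ := IsPGroup.iff_card.mp P.isPGroup'
    have h3 : Nat.card P ∣ 5616 := by
      rw [← card_X]; exact Subgroup.card_subgroup_dvd_card _
    rw [hk] at h3 ⊢
    have hk3 : k ≤ 3 := by
      by_contra hh
      push Not at hh
      have h4 : 3 ^ 4 ∣ 3 ^ k := pow_dvd_pow 3 hh
      have h5 := h4.trans h3
      omega
    calc 3 ^ k ≤ 3 ^ 3 := Nat.pow_le_pow_right (by norm_num) hk3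
      _ = 27 := by norm_num
  have hP₁e : (P₁ : Subgroup X) = Q' :=
    (Subgroup.eq_of_le_of_card_ge hP₁ (by rw [hQ'c]; exact hcardle P₁)).symm
  have hP₂e : (P₂ : Subgroup X) = U :=
    (Subgroup.eq_of_le_of_card_ge hP₂ (by rw [card_U]; exact hcardle P₂)).symm
  obtain ⟨g, hg⟩ := MulAction.exists_smul_eq X P₁ P₂
  have hmem : ∀ u ∈ U, g⁻¹ * u * g ∈ Q' := by
    intro u hu
    rw [← hP₂e, ← hg] at hu
    have h3 : ((g • P₁ : Sylow 3 X) : Subgroup X) = MulAut.conj g • (P₁ : Subgroup X) := rfl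
    rw [h3, Subgroup.mem_pointwise_smul_iff_inv_smul_mem] at hu
    rw [← hP₁e]
    simpa [MulAut.smul_def] using hu
  have hcomm : ∀ u ∈ U, Commute (g * s * g⁻¹) u := by
    intro u hu
    have h3 := hmem u hu
    rw [hQ', Subgroup.mem_map] at h3
    obtain ⟨y, _, hy⟩ := h3
    have h4 : Commute s (g⁻¹ * u * g) := by
      rw [← hy]
      exact mem_cent.mp y.2
    have h5 : s * (g⁻¹ * u * g) = (g⁻¹ * u * g) * s := h4
    show g * s * g⁻¹ * u = u * (g * s * g⁻¹)
    calc g * s * g⁻¹ * u = g * (s * (g⁻¹ * u * g)) * g⁻¹ := by group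
      _ = g * ((g⁻¹ * u * g) * s) * g⁻¹ := by rw [h5]
      _ = u * (g * s * g⁻¹) := by group
  have hu1 : uu 1 0 0 ∈ U := ⟨(1, 0, 0), rfl⟩
  have hu2 : uu 0 0 1 ∈ U := ⟨(0, 0, 1), rfl⟩
  have h6 := comm_U (hcomm _ hu1) (hcomm _ hu2)
  have hsg : s = g⁻¹ * (g * s * g⁻¹) * g⁻¹⁻¹ := by group
  rcases h6 with h6 | h6 | h6
  · exfalso
    apply h1
    rw [hsg, h6]
    group
  · rw [hsg, h6]
    exact conj_tau _ _ _
  · rw [hsg, h6, s₀, tau_inv]
    exact conj_tau _ _ _

/-! ### Double centralizers -/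

/-- `m` commutes with everything that commutes with `s`. -/
def Dc {G : Type*} [Group G] (s m : G) : Prop := ∀ z, Commute s z → Commute m z

theorem dc_s₀ {m : X} (h : Dc s₀ m) : m = 1 ∨ m = s₀ ∨ m = s₀⁻¹ :=
  comm_U (h _ (uu_comm_s₀ _ _ _).symm) (h _ (uu_comm_s₀ _ _ _).symm)

theorem dc_tau_true {e : Flag} {m : X} (h : Dc (tau e true) m) :
    m = 1 ∨ m = tau e true ∨ m = (tau e true)⁻¹ := by
  obtain ⟨g, hg⟩ := exists_conj e
  rw [← hg] at h ⊢
  have h1 : Dc s₀ (g⁻¹ * m * g) := by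
    intro z hz
    have hz' : s₀ * z = z * s₀ := hz
    have h2 : Commute (g * s₀ * g⁻¹) (g * z * g⁻¹) := by
      show g * s₀ * g⁻¹ * (g * z * g⁻¹) = g * z * g⁻¹ * (g * s₀ * g⁻¹)
      calc g * s₀ * g⁻¹ * (g * z * g⁻¹) = g * (s₀ * z) * g⁻¹ := by group
        _ = g * (z * s₀) * g⁻¹ := by rw [hz']
        _ = g * z * g⁻¹ * (g * s₀ * g⁻¹) := by group
    have h3 : m * (g * z * g⁻¹) = (g * z * g⁻¹) * m := h _ h2
    show g⁻¹ * m * g * z = z * (g⁻¹ * m * g)
    calc g⁻¹ * m * g * z = g⁻¹ * (m * (g * z * g⁻¹)) * g := by group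
      _ = g⁻¹ * ((g * z * g⁻¹) * m) * g := by rw [h3]
      _ = z * (g⁻¹ * m * g) := by group
  have hm : m = g * (g⁻¹ * m * g) * g⁻¹ := by group
  rcases dc_s₀ h1 with h2 | h2 | h2
  · left
    rw [hm, h2]; group
  · right; left
    rw [hm, h2]
  · right; right
    rw [hm, h2]; group

theorem dc_tau {e : Flag} {b : Bool} {m : X} (h : Dc (tau e b) m) :
    m = 1 ∨ m = tau e b ∨ m = (tau e b)⁻¹ := by
  cases b
  · have h2 : tau e false = (tau e true)⁻¹ := by rw [tau_inv]; rfl
    rw [h2] at h ⊢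
    have h3 : Dc (tau e true) m := fun z hz => h z (Commute.inv_left hz)
    rcases dc_tau_true h3 with h4 | h4 | h4
    · exact Or.inl h4
    · right; right
      rw [h4, inv_inv]
    · right; left
      exact h4
  · exact dc_tau_true h

/-- Only the identity commutes with all transvections. -/
theorem eq_one_of_comm_tau {m : X} (h : ∀ e b, Commute m (tau e b)) : m = 1 := by
  have h1 : uu 1 0 0 = tau ⟨(0, 1), by decide⟩ true := by
    apply Subtype.ext
    show uuM 1 0 0 = tauM 0 1 true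
    decide +kernel
  have h2 : uu 0 0 1 = tau ⟨(1, 2), by decide⟩ true := by
    apply Subtype.ext
    show uuM 0 0 1 = tauM 1 2 true
    decide +kernel
  have h3 := comm_U (m := m) (by rw [h1]; exact h _ _) (by rw [h2]; exact h _ _)
  let e₁ : Flag := ⟨(2, 0), by decide⟩
  have h4 : ¬ Commute s₀ (tau e₁ true) := by
    rw [s₀, tau_comm]
    decide
  rcases h3 with h3 | h3 | h3
  · exact h3
  · exfalso
    apply h4
    rw [← h3]
    exact h _ _
  · exfalso
    apply h4
    have h5 := h e₁ true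
    rw [h3] at h5
    exact Commute.inv_left_iff.mp h5

/-! ### No subgroup of index two -/

theorem transvection_cube : ∀ (i j : Fin 3) (hij : i ≠ j) (a : ZMod 3),
    Matrix.SpecialLinearGroup.transvection hij a ^ 3 = 1 := by
  intro i j hij a
  apply Subtype.ext
  simp only [Matrix.SpecialLinearGroup.coe_pow, Matrix.SpecialLinearGroup.transvection_coe,
    Matrix.SpecialLinearGroup.coe_one]
  revert i j a
  decide +kernel

theorem no_index_two (Y : Subgroup X) (h : Y.index = 2) : False := by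
  have hsq : ∀ x : X, x * x ∈ Y := fun x => Subgroup.mul_self_mem_of_index_two h x
  have hcl : Subgroup.closure {t : X | ∃ (i j : Fin 3) (hij : i ≠ j) (a : ZMod 3),
      t = Matrix.SpecialLinearGroup.transvection hij a} ≤ Y := by
    rw [Subgroup.closure_le]
    rintro _ ⟨i, j, hij, a, rfl⟩
    have h3 := transvection_cube i j hij a
    set t := Matrix.SpecialLinearGroup.transvection hij a with ht
    have h4 : t = (t * t) * (t * t) := by
      calc t = t ^ 3 * t := by rw [h3, one_mul]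
        _ = (t * t) * (t * t) := by simp only [pow_succ, pow_zero, one_mul, mul_assoc]
    rw [h4]
    exact hsq _
  rw [Cfsg.Agent.Lib.Classical.Transvections.closure_transvections_eq_top] at hcl
  have h5 : Y = ⊤ := top_le_iff.mp hcl
  rw [h5, Subgroup.index_top] at h
  omega

end Cfsg.Agent.Lib.L33Comm.Cent
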