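/-
A group with the commuting graph of `SL₃(3)` acts faithfully on the flags of the plane of order 3,
and it is isomorphic to `SL₃(3)`.
-/
import Cfsg.Agent.Lib.L33Comm.Cent

set_option autoImplicit false
set_option maxRecDepth 100000
set_option linter.unusedSectionVars false

namespace Cfsg.Agent.Lib.L33Comm.Main

open Matrix Subgroup Equiv Cfsg.Agent.Lib.L33Comm.Plane Cfsg.Agent.Lib.L33Comm.Tv
open Cfsg.Agent.Lib.L33Comm.Cent

variable {H : Type*} [Group H]

section transport

variable (F : H ≃ X) (hone : F 1 = 1) (hF : ∀ x y, Commute x y ↔ Commute (F x) (F y))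

/-- Elements corresponding to transvections. -/
def TH (t : H) : Prop := t ≠ 1 ∧ 27 ∣ Nat.card (centralizer ({t} : Set H))

include hone hF

theorem card_cent (x : H) :
    Nat.card (centralizer ({x} : Set H)) = Nat.card (centralizer ({F x} : Set X)) := by
  refine Nat.card_congr (Equiv.subtypeEquiv F ?_)
  intro y
  rw [mem_cent, mem_cent]
  exact hF x y

theorem F_eq_one {x : H} : F x = 1 ↔ x = 1 := by
  rw [← hone]
  exact F.injective.eq_iff

theorem TH_iff {t : H} : TH t ↔ IsT (F t) := by
  unfold TH IsT
  rw [card_cent F hone hF, Ne, Ne, F_eq_one F hone hF]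

omit hone hF in
theorem TH_conj (h : H) {t : H} (ht : TH t) : TH (h * t * h⁻¹) := by
  refine ⟨?_, ?_⟩
  · intro h1
    apply ht.1
    have : t = h⁻¹ * (h * t * h⁻¹) * h := by group
    rw [this, h1]; group
  · rw [card_cent_conj]; exact ht.2

theorem dc_iff {t y : H} : Dc t y ↔ Dc (F t) (F y) := by
  constructor
  · intro h z hz
    obtain ⟨z', rfl⟩ := F.surjective z
    exact (hF _ _).mp (h z' ((hF _ _).mpr hz))
  · intro h z hz
    exact (hF _ _).mpr (h _ ((hF _ _).mp hz))

/-- Transvections of `H` have order 3. -/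
theorem t_cube [Finite H] {t : H} (ht : TH t) : t ^ 3 = 1 := by
  classical
  obtain ⟨e, b, hs⟩ := exists_tau_of_isT ((TH_iff F hone hF).mp ht)
  set s := F t with hsdef
  -- the double centralizer
  set W : Subgroup H := centralizer (centralizer ({t} : Set H) : Set H) with hW
  have hmem : ∀ y, y ∈ W ↔ Dc t y := by
    intro y
    rw [hW, mem_centralizer_iff]
    constructor
    · intro h z hz
      have h1 : z ∈ centralizer ({t} : Set H) := mem_cent.mpr hz
      have h2 := h z h1
      exact h2.symm
    · intro h z hz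
      have h1 := h z (mem_cent.mp hz)
      exact h1.symm
  have hs3 : s ^ 3 = 1 := by rw [hs]; exact tau_cube e b
  have hss : ∀ m : X, Dc s m ↔ m = 1 ∨ m = s ∨ m = s⁻¹ := by
    intro m
    constructor
    · intro h
      rw [hs] at h ⊢
      exact dc_tau h
    · rintro (rfl | rfl | rfl)
      · intro z _; exact Commute.one_left z
      · intro z hz; exact hz
      · intro z hz; exact Commute.inv_left hz
  have hcard : Nat.card W = 3 := by
    have h1 : Nat.card W = Nat.card {m : X // m = 1 ∨ m = s ∨ m = s⁻¹} := by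
      refine Nat.card_congr (Equiv.subtypeEquiv F ?_)
      intro y
      rw [hmem, dc_iff F hone hF, hss]
    rw [h1]
    have h2 : Nat.card {m : X // m = 1 ∨ m = s ∨ m = s⁻¹} =
        (({1, s, s⁻¹} : Finset X)).card := by
      rw [Nat.card_eq_fintype_card]
      apply Fintype.card_of_subtype
      intro x
      simp
    rw [h2]
    have h3 : (1 : X) ≠ s := by rw [hs]; exact (tau_ne_one e b).symm
    have h4 : (1 : X) ≠ s⁻¹ := by
      rw [hs]
      intro h
      exact tau_ne_one e b (inv_eq_one.mp h.symm)
    have h5 : s ≠ s⁻¹ := by rw [hs]; exact (tau_inv_ne e b).symm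
    rw [Finset.card_insert_of_notMem (by simp [h3, h4]), Finset.card_pair h5]
  have htW : t ∈ W := (hmem t).mpr fun z hz => hz
  have h6 : orderOf (⟨t, htW⟩ : W) ∣ Nat.card W := orderOf_dvd_natCard _
  rw [hcard, Subgroup.orderOf_mk] at h6
  exact orderOf_dvd_iff_pow_eq_one.mp h6

/-- `F` respects inverses of transvections. -/
theorem F_inv [Finite H] {t : H} (ht : TH t) : F t⁻¹ = (F t)⁻¹ := by
  obtain ⟨e, b, hs⟩ := exists_tau_of_isT ((TH_iff F hone hF).mp ht)
  have h3 := t_cube F hone hF ht
  have h1 : Dc (F t) (F t⁻¹) := (dc_iff F hone hF).mp fun z hz => Commute.inv_left hz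
  rw [hs] at h1 ⊢
  rcases dc_tau h1 with h2 | h2 | h2
  · exfalso
    rw [F_eq_one F hone hF] at h2
    exact ht.1 (inv_eq_one.mp h2)
  · exfalso
    rw [← hs] at h2
    have h4 : t⁻¹ = t := F.injective h2
    apply ht.1
    have h5 : t * t = 1 := by
      nth_rewrite 1 [← h4]
      exact inv_mul_cancel t
    calc t = (t * t) * t := by rw [h5, one_mul]
      _ = t ^ 3 := by simp only [pow_succ, pow_zero, one_mul]
      _ = 1 := h3
  · exact h2

/-- The flag of a transvection. -/
noncomputable def fl (s : X) : Flag := by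
  classical
  exact if h : ∃ e b, s = tau e b then h.choose else e₀

omit hone hF in
theorem fl_tau (e : Flag) (b : Bool) : fl (tau e b) = e := by
  classical
  have h : ∃ e' b', tau e b = tau e' b' := ⟨e, b, rfl⟩
  unfold fl
  rw [dif_pos h]
  exact (tau_inj h.choose_spec.choose_spec).1.symm

/-- The transported conjugation action. -/
def rho : H →* Perm X where
  toFun h := (F.symm.trans (MulAut.conj h).toEquiv).trans F
  map_one' := by
    ext1 s
    simp
  map_mul' a b := by
    ext1 s
    simp [mul_assoc]

omit hone hF in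
theorem rho_apply (h : H) (s : X) : rho F h s = F (h * F.symm s * h⁻¹) := rfl

/-- Transported elements. -/
theorem TH_symm_tau (e : Flag) (b : Bool) : TH (F.symm (tau e b)) := by
  rw [TH_iff F hone hF, Equiv.apply_symm_apply]
  exact isT_tau e b

theorem rho_tau_exists [Finite H] (h : H) (e : Flag) (b : Bool) :
    ∃ b', rho F h (tau e b) = tau (fl (rho F h (tau e true))) b' := by
  -- the image of the true element is a transvection
  have h1 : TH (h * F.symm (tau e true) * h⁻¹) := TH_conj h (TH_symm_tau F hone hF e true)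
  obtain ⟨e', b', hs⟩ := exists_tau_of_isT ((TH_iff F hone hF).mp h1)
  have h2 : rho F h (tau e true) = tau e' b' := hs
  rw [h2, fl_tau]
  cases b
  · refine ⟨!b', ?_⟩
    have h3 : tau e false = (tau e true)⁻¹ := by rw [tau_inv]; rfl
    rw [h3, ← tau_inv, ← h2, rho_apply F, rho_apply F]
    have h4 : F.symm (tau e true)⁻¹ = (F.symm (tau e true))⁻¹ := by
      apply F.injective
      rw [F_inv F hone hF (TH_symm_tau F hone hF e true)]
      simp
    rw [h4]
    have h5 : h * (F.symm (tau e true))⁻¹ * h⁻¹ = (h * F.symm (tau e true) * h⁻¹)⁻¹ := by group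
    rw [h5, F_inv F hone hF h1]
  · exact ⟨b', h2⟩

/-- The action on flags. -/
noncomputable def phi (h : H) (e : Flag) : Flag := fl (rho F h (tau e true))

theorem phi_mul [Finite H] (a b : H) (e : Flag) : phi F (a * b) e = phi F a (phi F b e) := by
  unfold phi
  rw [(rho F).map_mul, Perm.mul_apply]
  obtain ⟨b', hb⟩ := rho_tau_exists F hone hF b e true
  obtain ⟨b'', hb''⟩ := rho_tau_exists F hone hF a (fl (rho F b (tau e true))) b'
  conv_lhs => rw [hb, hb'', fl_tau]

omit hone hF in
theorem phi_one (e : Flag) : phi F (1 : H) e = e := by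
  unfold phi
  rw [(rho F).map_one, Perm.one_apply, fl_tau]

/-- The action on flags as a homomorphism. -/
noncomputable def psi [Finite H] : H →* Perm Flag where
  toFun h :=
    { toFun := phi F h
      invFun := phi F h⁻¹
      left_inv := fun e => by
        rw [← phi_mul F hone hF, inv_mul_cancel, phi_one F]
      right_inv := fun e => by
        rw [← phi_mul F hone hF, mul_inv_cancel, phi_one F] }
  map_one' := by
    ext1 e
    exact phi_one F e
  map_mul' a b := by
    ext1 e
    exact phi_mul F hone hF a b e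

theorem psi_apply [Finite H] (h : H) (e : Flag) : psi F hone hF h e = phi F h e := rfl

theorem rho_comm (h : H) (s s' : X) : Commute (rho F h s) (rho F h s') ↔ Commute s s' := by
  rw [rho_apply F, rho_apply F, ← hF]
  have h1 : Commute (h * F.symm s * h⁻¹) (h * F.symm s' * h⁻¹) ↔ Commute (F.symm s) (F.symm s') := by
    constructor
    · intro h2
      have h3 : (h * F.symm s * h⁻¹) * (h * F.symm s' * h⁻¹) = (h * F.symm s' * h⁻¹) * (h * F.symm s * h⁻¹) := h2
      show F.symm s * F.symm s' = F.symm s' * F.symm s
      have h4 : h * (F.symm s * F.symm s') * h⁻¹ = h * (F.symm s' * F.symm s) * h⁻¹ := by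
        calc h * (F.symm s * F.symm s') * h⁻¹ = (h * F.symm s * h⁻¹) * (h * F.symm s' * h⁻¹) := by group
          _ = (h * F.symm s' * h⁻¹) * (h * F.symm s * h⁻¹) := h3
          _ = h * (F.symm s' * F.symm s) * h⁻¹ := by group
      exact mul_left_cancel (mul_right_cancel h4)
    · intro h2
      have h3 : F.symm s * F.symm s' = F.symm s' * F.symm s := h2
      show (h * F.symm s * h⁻¹) * (h * F.symm s' * h⁻¹) = (h * F.symm s' * h⁻¹) * (h * F.symm s * h⁻¹)
      calc (h * F.symm s * h⁻¹) * (h * F.symm s' * h⁻¹) = h * (F.symm s * F.symm s') * h⁻¹ := by group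
        _ = h * (F.symm s' * F.symm s) * h⁻¹ := by rw [h3]
        _ = (h * F.symm s' * h⁻¹) * (h * F.symm s * h⁻¹) := by group
  rw [h1, hF]
  simp

theorem psi_isAut [Finite H] (h : H) : IsAut (psi F hone hF h) := by
  intro e e'
  rw [psi_apply, psi_apply, ← tau_comm e e' true true, ← rho_comm F hone hF h]
  unfold phi
  obtain ⟨b₁, h1⟩ := rho_tau_exists F hone hF h e true
  obtain ⟨b₂, h2⟩ := rho_tau_exists F hone hF h e' true
  rw [h1, h2, tau_comm, fl_tau, fl_tau]

/-- The kernel of the action on flags is trivial. -/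
theorem psi_inj [Finite H] : Function.Injective (psi F hone hF) := by
  rw [injective_iff_map_eq_one]
  intro k hk
  set K := (psi F hone hF).ker with hK
  have hkK : ∀ k ∈ K, ∀ t, TH t → k * t * k⁻¹ = t ∨ k * t * k⁻¹ = t⁻¹ := by
    intro k hk t ht
    obtain ⟨e, b, hs⟩ := exists_tau_of_isT ((TH_iff F hone hF).mp ht)
    have h1 : phi F k e = e := by
      have : psi F hone hF k = 1 := hk
      have h2 := congrArg (fun π : Perm Flag => π e) this
      exact h2
    obtain ⟨b', hb⟩ := rho_tau_exists F hone hF k e b
    have h2 : fl (rho F k (tau e true)) = e := h1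
    rw [h2, ← hs, rho_apply F, Equiv.symm_apply_apply] at hb
    have h3 : b' = b ∨ b' = !b := by cases b <;> cases b' <;> simp
    rcases h3 with rfl | rfl
    · left
      apply F.injective
      rw [hb, hs]
    · right
      apply F.injective
      rw [hb, F_inv F hone hF ht, hs, tau_inv]
  -- elements of the kernel commute with transvections
  have hnorm : K.Normal := MonoidHom.normal_ker _
  have hcomm_t : ∀ t, TH t → ∀ t', TH t' → t ∈ K → Commute t t' := by
    intro t ht t' ht' htK
    have h1 := t_cube F hone hF ht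
    have h1' := t_cube F hone hF ht'
    rcases hkK t htK t' ht' with h2 | h2
    · have : t * t' = t' * t := by
        calc t * t' = (t * t' * t⁻¹) * t := by group
          _ = t' * t := by rw [h2]
      exact this
    · exfalso
      -- conjugating three times
      have h3 : t * t'⁻¹ * t⁻¹ = t' := by
        have h4 : (t * t' * t⁻¹)⁻¹ = t'⁻¹⁻¹ := by rw [h2]
        simpa [mul_assoc] using h4
      have ht3 : t * t * t = 1 := by simpa [pow_succ] using h1
      have h5 : (t * t * t) * t' * (t * t * t)⁻¹ = t'⁻¹ := by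
        calc (t * t * t) * t' * (t * t * t)⁻¹ = t * (t * (t * t' * t⁻¹) * t⁻¹) * t⁻¹ := by group
          _ = t * (t * t'⁻¹ * t⁻¹) * t⁻¹ := by rw [h2]
          _ = t * t' * t⁻¹ := by rw [h3]
          _ = t'⁻¹ := h2
      rw [ht3] at h5
      simp only [one_mul, inv_one, mul_one] at h5
      apply ht'.1
      calc t' = t' ^ 3 * (t' * t')⁻¹ := by
            simp only [pow_succ, pow_zero, one_mul]
            group
        _ = 1 := by
            have h6 : t' * t' = 1 := by
              nth_rewrite 2 [h5]
              exact mul_inv_cancel t'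
            rw [h1', h6]; simp
  have hall : ∀ k ∈ K, ∀ t, TH t → Commute k t := by
    intro k hkk t ht
    rcases hkK k hkk t ht with h2 | h2
    · have : k * t = t * k := by
        calc k * t = (k * t * k⁻¹) * k := by group
          _ = t * k := by rw [h2]
      exact this
    · exfalso
      have h3 := t_cube F hone hF ht
      -- t² lies in K, so t lies in K
      have h4 : t * k * t⁻¹ * k⁻¹ = t * t := by
        have h5 : k * t⁻¹ * k⁻¹ = t := by
          have h6 : (k * t * k⁻¹)⁻¹ = t⁻¹⁻¹ := by rw [h2]
          simpa [mul_assoc] using h6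
        calc t * k * t⁻¹ * k⁻¹ = t * (k * t⁻¹ * k⁻¹) := by group
          _ = t * t := by rw [h5]
      have h7 : t * t ∈ K := by
        rw [← h4]
        exact K.mul_mem (hnorm.conj_mem k hkk t) (K.inv_mem hkk)
      have h8 : t ∈ K := by
        have h9 : t = (t * t) * (t * t) := by
          calc t = t ^ 3 * t := by rw [h3, one_mul]
            _ = (t * t) * (t * t) := by simp only [pow_succ, pow_zero, one_mul, mul_assoc]
        rw [h9]
        exact K.mul_mem h7 h7
      apply ht.1
      apply (F_eq_one F hone hF).mp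
      apply eq_one_of_comm_tau
      intro e b
      have h10 := hcomm_t t ht _ (TH_symm_tau F hone hF e b) h8
      have h11 := (hF _ _).mp h10
      rwa [Equiv.apply_symm_apply] at h11
  apply (F_eq_one F hone hF).mp
  apply eq_one_of_comm_tau
  intro e b
  have h10 := hall k hk _ (TH_symm_tau F hone hF e b)
  have h11 := (hF _ _).mp h10
  rwa [Equiv.apply_symm_apply] at h11

/-- The subgroup of elements keeping points and lines. -/
noncomputable def MK [Finite H] : Subgroup H where
  carrier := {h | Keep (psi F hone hF h)}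
  mul_mem' := fun {a b} ha hb => by
    show Keep _
    rw [map_mul]
    exact keep_mul ha hb
  one_mem' := by
    show Keep _
    rw [map_one]
    exact ⟨fun _ _ h => h, fun _ _ h => h⟩
  inv_mem' := fun {a} ha => by
    show Keep _
    rw [map_inv]
    exact keep_inv (psi_isAut F hone hF a) ha

theorem MK_index [Finite H] (h : MK F hone hF ≠ ⊤) : (MK F hone hF).index = 2 := by
  obtain ⟨h₀, hh₀⟩ : ∃ h₀, h₀ ∉ MK F hone hF := by
    by_contra hne
    push Not at hne
    exact h (eq_top_iff.mpr fun x _ => hne x)
  have hswap : ∀ x, x ∉ MK F hone hF → Swap (psi F hone hF x) := fun x hx =>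
    (keep_or_swap (psi_isAut F hone hF x)).resolve_left hx
  rw [Subgroup.index_eq_two_iff]
  refine ⟨h₀, fun b => ?_⟩
  by_cases hb : b ∈ MK F hone hF
  · refine Or.inr ⟨hb, fun h2 => hh₀ ?_⟩
    have := (MK F hone hF).mul_mem ((MK F hone hF).inv_mem hb) h2
    simpa using this
  · refine Or.inl ⟨?_, hb⟩
    show Keep _
    rw [map_mul]
    exact swap_mul (hswap _ hb) (hswap _ hh₀)

end transport

section final

variable [Finite H]

/-- The restriction to the group of automorphisms keeping points and lines. -/
noncomputable def psiK (F : H ≃ X) (hone : F 1 = 1) (hF : ∀ x y, Commute x y ↔ Commute (F x) (F y))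
    (M : Subgroup H) (hM : M ≤ MK F hone hF) : M →* AA :=
  ((psi F hone hF).comp M.subtype).codRestrict AA
    (fun x => ⟨psi_isAut F hone hF x.1, hM x.2⟩)

theorem psiK_inj (F : H ≃ X) (hone : F 1 = 1) (hF : ∀ x y, Commute x y ↔ Commute (F x) (F y))
    (M : Subgroup H) (hM : M ≤ MK F hone hF) : Function.Injective (psiK F hone hF M hM) := by
  intro a b h
  have h1 : psi F hone hF a.1 = psi F hone hF b.1 := congrArg Subtype.val h
  exact Subtype.ext (psi_inj F hone hF h1)

theorem main (F : H ≃ X) (hone : F 1 = 1) (hF : ∀ x y, Commute x y ↔ Commute (F x) (F y)) :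
    Nonempty (H ≃* X) := by
  classical
  let Fx : X ≃ X := Equiv.refl X
  have honeX : Fx 1 = 1 := rfl
  have hFX : ∀ x y, Commute x y ↔ Commute (Fx x) (Fx y) := fun _ _ => Iff.rfl
  have hXtop : MK Fx honeX hFX = ⊤ := by
    by_contra h
    exact Cfsg.Agent.Lib.L33Comm.Cent.no_index_two _ (MK_index Fx honeX hFX h)
  have hcardX : Nat.card X = 5616 := card_X
  have hle : Nat.card AA ≤ 5616 := card_AA_le
  -- the group `X` is isomorphic to the group of automorphisms
  let ψ₀ := psiK Fx honeX hFX ⊤ hXtop.ge
  have hψ₀ := psiK_inj Fx honeX hFX ⊤ hXtop.ge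
  have hcardtop : Nat.card (⊤ : Subgroup X) = 5616 := by rw [Subgroup.card_top, hcardX]
  have hb₀ : Function.Bijective ψ₀ := by
    refine (Nat.bijective_iff_injective_and_card ψ₀).mpr ⟨hψ₀, ?_⟩
    have := Nat.card_le_card_of_injective _ hψ₀
    omega
  let e₀' : (⊤ : Subgroup X) ≃* AA := MulEquiv.ofBijective ψ₀ hb₀
  have hcardAA : Nat.card AA = 5616 := by
    rw [← Nat.card_congr e₀'.toEquiv, hcardtop]
  have hcardH : Nat.card H = 5616 := by rw [Nat.card_congr F, hcardX]
  -- the group `H`
  have hHtop : MK F hone hF = ⊤ := by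
    by_contra h
    have hi := MK_index F hone hF h
    set M := MK F hone hF with hM
    have hcM : Nat.card M = 2808 := by
      have := Subgroup.index_mul_card M
      rw [hi, hcardH] at this
      omega
    let ψM := psiK F hone hF M le_rfl
    have hψM := psiK_inj F hone hF M le_rfl
    have hcI : Nat.card ψM.range = 2808 := by
      rw [← hcM]
      exact (Nat.card_congr (MonoidHom.ofInjective hψM).toEquiv).symm
    let Y : Subgroup X := ((ψM.range).map e₀'.symm.toMonoidHom).map (⊤ : Subgroup X).subtype
    have hcY : Nat.card Y = 2808 := by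
      rw [Subgroup.card_map_of_injective (Subgroup.subtype_injective _),
        Subgroup.card_map_of_injective e₀'.symm.injective, hcI]
    have hiY : Y.index = 2 := by
      have := Subgroup.index_mul_card Y
      rw [hcY, hcardX] at this
      omega
    exact Cfsg.Agent.Lib.L33Comm.Cent.no_index_two Y hiY
  let ψ₁ := psiK F hone hF ⊤ hHtop.ge
  have hψ₁ := psiK_inj F hone hF ⊤ hHtop.ge
  have hb₁ : Function.Bijective ψ₁ := by
    refine (Nat.bijective_iff_injective_and_card ψ₁).mpr ⟨hψ₁, ?_⟩
    rw [Subgroup.card_top, hcardH, hcardAA]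
  let e₁ : (⊤ : Subgroup H) ≃* AA := MulEquiv.ofBijective ψ₁ hb₁
  exact ⟨(Subgroup.topEquiv.symm.trans e₁).trans (e₀'.symm.trans Subgroup.topEquiv)⟩

end final

end Cfsg.Agent.Lib.L33Comm.Main
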